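import Cfsg.Agent.H884.Ex.Types
import Cfsg.Agent.S2119

/-!
# S3510, EXC: reduction to permutations (helper884)
-/

set_option autoImplicit false
set_option linter.unusedSectionVars false

namespace Cfsg.Agent.H884.Ex

open Equiv Equiv.Perm

universe u v

/-- a nontrivial element of `⟨g⟩` generates an element `g ^ (m / r)` of prime order -/
theorem exists_prime_pow {G : Type u} [Group G] [Finite G] {g z : G} (hz : z ∈ Subgroup.zpowers g) (h1 : z ≠ 1) :
    ∃ r : ℕ, r.Prime ∧ r ∣ orderOf g ∧ g ^ (orderOf g / r) ∈ Subgroup.zpowers z := by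
  rw [← mem_powers_iff_mem_zpowers] at hz
  obtain ⟨k, rfl⟩ := hz
  have hm : 0 < orderOf g := orderOf_pos g
  obtain ⟨m, hmd⟩ : ∃ m, m = orderOf g := ⟨_, rfl⟩
  obtain ⟨e, he⟩ : ∃ e, e = Nat.gcd k m := ⟨_, rfl⟩
  have hne : e ≠ m := by
    intro h
    apply h1
    have : m ∣ k := by rw [← h, he]; exact Nat.gcd_dvd_left _ _
    exact orderOf_dvd_iff_pow_eq_one.1 (hmd ▸ this)
  obtain ⟨c, hcm⟩ : e ∣ m := he ▸ Nat.gcd_dvd_right _ _
  have hc1 : c ≠ 1 := by rintro rfl; rw [mul_one] at hcm; exact hne hcm.symm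
  obtain ⟨r, hr, hrc⟩ := Nat.exists_prime_and_dvd hc1
  obtain ⟨d, rfl⟩ := hrc
  have hmr : m = r * (e * d) := by rw [hcm]; ring
  have hdiv : m / r = e * d := by rw [hmr, Nat.mul_div_cancel_left _ hr.pos]
  refine ⟨r, hr, ⟨e * d, by rw [← hmd]; exact hmr⟩, ?_⟩
  rw [← hmd, hdiv, pow_mul]
  apply Subgroup.pow_mem
  -- Bezout
  have hb : ((e : ℕ) : ℤ) = k * Nat.gcdA k m + m * Nat.gcdB k m := by rw [he]; exact Nat.gcd_eq_gcd_ab k m
  rw [Subgroup.mem_zpowers_iff]
  refine ⟨Nat.gcdA k m, ?_⟩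
  change (g ^ k) ^ Nat.gcdA k m = g ^ e
  rw [← zpow_natCast g e, hb, zpow_add, zpow_mul, zpow_mul, zpow_natCast, zpow_natCast, hmd, pow_orderOf_eq_one,
    one_zpow, mul_one]

section cov

variable {G : Type u} [Group G] [Finite G] {Ω : Type v} [Fintype Ω] [MulAction G Ω] [FaithfulSMul G Ω]

/-- every point is fixed by an element of prime order -/
theorem exists_fix {g : G} (hg : ∀ ω : Ω, MulAction.stabilizer (Subgroup.zpowers g) ω ≠ ⊥) (ω : Ω) :
    ∃ r : ℕ, r.Prime ∧ r ∣ orderOf g ∧ g ^ (orderOf g / r) • ω = ω := by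
  obtain ⟨z, hz1⟩ := Subgroup.ne_bot_iff_exists_ne_one.1 (hg ω)
  have h1 : (z : Subgroup.zpowers g) • ω = ω := z.2
  have h2 : ((z : Subgroup.zpowers g) : G) • ω = ω := h1
  obtain ⟨r, hr, hrm, h3⟩ := exists_prime_pow (z : Subgroup.zpowers g).2 (fun h => hz1 (Subtype.ext (Subtype.ext h)))
  refine ⟨r, hr, hrm, ?_⟩
  have h4 : Subgroup.zpowers ((z : Subgroup.zpowers g) : G) ≤ MulAction.stabilizer G ω := by
    rw [Subgroup.zpowers_le]; exact h2
  exact h4 h3

/-- prime powers are impossible -/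
theorem not_pp [Nonempty Ω] {g : G} (hg : ∀ ω : Ω, MulAction.stabilizer (Subgroup.zpowers g) ω ≠ ⊥)
    (h : PP (orderOf g)) : False := by
  obtain ⟨p, k, hp, hk⟩ := h
  rcases Nat.eq_zero_or_pos k with rfl | hk0
  · rw [pow_zero] at hk
    obtain ⟨r, hr, hrm, _⟩ := exists_fix hg (Classical.arbitrary Ω)
    rw [hk] at hrm
    exact hr.one_lt.ne' (Nat.dvd_one.1 hrm)
  · have h1 : g ^ (orderOf g / p) = 1 := by
      apply eq_of_smul_eq_smul (α := Ω)
      intro ω
      obtain ⟨r, hr, hrm, h2⟩ := exists_fix hg ω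
      have : r = p := by
        rw [hk] at hrm
        exact (Nat.prime_dvd_prime_iff_eq hr hp).1 (hr.dvd_of_dvd_pow hrm)
      rw [this] at h2
      rw [h2, one_smul]
    have hpm : p ∣ orderOf g := by rw [hk]; exact dvd_pow_self p hk0.ne'
    have h2 := orderOf_dvd_of_pow_eq_one h1
    have h3 : orderOf g / p < orderOf g := Nat.div_lt_self (orderOf_pos g) hp.one_lt
    have h4 : 0 < orderOf g / p := Nat.div_pos (Nat.le_of_dvd (orderOf_pos g) hpm) hp.pos
    exact absurd (Nat.le_of_dvd h4 h2) (by omega)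

end cov

section ind

variable {G : Type u} [Group G] {T : Subgroup G} [T.Normal] {n : ℕ} (e : T ≃* alternatingGroup (Fin n))

/-- `x` induces `π` on `T` -/
def Ind (x : G) (π : Perm (Fin n)) : Prop :=
  ∀ t : T, ((e (MulAut.conjNormal x t) : alternatingGroup (Fin n)) : Perm (Fin n)) = π * (e t : Perm (Fin n)) * π⁻¹

variable {e}

theorem Ind.one : Ind e (1 : G) 1 := by
  intro t; simp

theorem Ind.mul {x y : G} {π ρ : Perm (Fin n)} (h1 : Ind e x π) (h2 : Ind e y ρ) : Ind e (x * y) (π * ρ) := by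
  intro t
  rw [map_mul, MulAut.mul_apply, h1, h2]
  group

theorem Ind.inv {x : G} {π : Perm (Fin n)} (h1 : Ind e x π) : Ind e x⁻¹ π⁻¹ := by
  intro t
  have h2 := h1 (MulAut.conjNormal x⁻¹ t)
  rw [← MulAut.mul_apply, ← map_mul, mul_inv_cancel, map_one, MulAut.one_apply] at h2
  rw [h2]; group

theorem Ind.pow {x : G} {π : Perm (Fin n)} (h1 : Ind e x π) : ∀ k : ℕ, Ind e (x ^ k) (π ^ k)
  | 0 => by rw [pow_zero, pow_zero]; exact Ind.one
  | k + 1 => by rw [pow_succ, pow_succ]; exact (Ind.pow h1 k).mul h1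

theorem Ind.self (s : T) : Ind e (s : G) (e s : Perm (Fin n)) := by
  intro t
  have : MulAut.conjNormal (s : G) t = s * t * s⁻¹ := by
    apply Subtype.ext
    rw [MulAut.conjNormal_apply]; rfl
  rw [this, map_mul, map_mul, map_inv]; rfl

theorem Ind.left_unique (hC : Subgroup.centralizer (T : Set G) = ⊥) {x y : G} {π : Perm (Fin n)}
    (h1 : Ind e x π) (h2 : Ind e y π) : x = y := by
  have h3 : Ind e (y⁻¹ * x) 1 := by
    have := h2.inv.mul h1
    rwa [inv_mul_cancel] at this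
  have h4 : y⁻¹ * x ∈ Subgroup.centralizer (T : Set G) := by
    rw [Subgroup.mem_centralizer_iff]
    intro t ht
    have h5 := h3 ⟨t, ht⟩
    rw [one_mul, inv_one, mul_one] at h5
    have h6 := congrArg Subtype.val (e.injective (Subtype.ext h5))
    rw [MulAut.conjNormal_apply] at h6
    have h7 : y⁻¹ * x * t = t * (y⁻¹ * x) := by
      calc y⁻¹ * x * t = (y⁻¹ * x * t * (y⁻¹ * x)⁻¹) * (y⁻¹ * x) := by group
        _ = t * (y⁻¹ * x) := by rw [h6]
    exact h7.symm
  rw [hC] at h4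
  have h5 : y⁻¹ * x = 1 := Subgroup.mem_bot.1 h4
  rw [inv_mul_eq_one] at h5
  exact h5.symm

theorem Ind.right_unique (hn : 4 ≤ n) {x : G} {π ρ : Perm (Fin n)} (h1 : Ind e x π) (h2 : Ind e x ρ) : π = ρ := by
  obtain ⟨m, rfl⟩ : ∃ m, n = m + 2 := ⟨n - 2, by omega⟩
  apply Cfsg.Agent.StandardComponent.AltAut.conj_unique (m := m) (by omega)
  intro y
  have h3 := h1 (e.symm y)
  rw [h2 (e.symm y), MulEquiv.apply_symm_apply] at h3
  exact h3.symm

theorem Ind.orderOf_eq (hn : 4 ≤ n) (hC : Subgroup.centralizer (T : Set G) = ⊥) {x : G} {π : Perm (Fin n)}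
    (h1 : Ind e x π) : orderOf x = orderOf π := by
  apply orderOf_eq_orderOf_iff.2
  intro k
  constructor
  · intro h
    have h2 := h1.pow k
    rw [h] at h2
    exact h2.right_unique hn Ind.one
  · intro h
    have h2 := h1.pow k
    rw [h] at h2
    exact h2.left_unique hC Ind.one

variable (e)

/-- the permutations induced by the elements of `S` -/
def HH (S : Subgroup G) : Subgroup (Perm (Fin n)) where
  carrier := {π | ∃ x ∈ S, Ind e x π}
  one_mem' := ⟨1, S.one_mem, Ind.one⟩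
  mul_mem' := by
    rintro π ρ ⟨x, hx, h1⟩ ⟨y, hy, h2⟩
    exact ⟨x * y, S.mul_mem hx hy, h1.mul h2⟩
  inv_mem' := by
    rintro π ⟨x, hx, h1⟩
    exact ⟨x⁻¹, S.inv_mem hx, h1.inv⟩

theorem mem_HH {S : Subgroup G} {π : Perm (Fin n)} : π ∈ HH e S ↔ ∃ x ∈ S, Ind e x π := Iff.rfl

variable {Ω : Type v} [MulAction G Ω]

theorem cov_of [Finite G] (hn : 4 ≤ n) (hC : Subgroup.centralizer (T : Set G) = ⊥) {g : G} {σ : Perm (Fin n)}
    (hi : Ind e g σ) (hg : ∀ ω : Ω, ∃ r : ℕ, r.Prime ∧ r ∣ orderOf g ∧ g ^ (orderOf g / r) • ω = ω) (ω0 : Ω) :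
    Cov (HH e (MulAction.stabilizer G ω0)) σ := by
  intro t ht
  have ho := hi.orderOf_eq hn hC
  obtain ⟨s, hs⟩ := e.surjective ⟨t, ht⟩
  have hs' : (e s : Perm (Fin n)) = t := by rw [hs]
  obtain ⟨r, h1, h2, h3⟩ := hg ((s : G) • ω0)
  refine ⟨r, h1, by rwa [← ho], ?_⟩
  rw [mem_HH]
  refine ⟨(s : G)⁻¹ * g ^ (orderOf g / r) * s, ?_, ?_⟩
  · rw [MulAction.mem_stabilizer_iff, mul_smul, mul_smul, h3, inv_smul_smul]
  · rw [← hs', ← ho]
    exact ((Ind.self s).inv.mul (hi.pow _)).mul (Ind.self s)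

end ind

/-! ### the number of points -/

section card

variable {G : Type u} [Group G] [Finite G] {Ω : Type v} [Fintype Ω] [MulAction G Ω] [FaithfulSMul G Ω]

theorem card_dvd_factorial (T : Subgroup G) : Nat.card T ∣ (Nat.card Ω).factorial := by
  have h1 : Function.Injective (MulAction.toPermHom T Ω) := MulAction.toPerm_injective
  have h2 := Subgroup.card_dvd_of_injective _ h1
  rwa [Nat.card_perm] at h2

theorem trans_of (T : Subgroup G) [T.Normal] (hT : T ≠ ⊥) (hprim : MulAction.IsPreprimitive G Ω) :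
    MulAction.IsPretransitive T Ω := by
  apply MulAction.IsQuasiPreprimitive.isPretransitive_of_normal
  intro h
  apply hT
  rw [eq_bot_iff]
  intro t ht
  rw [Subgroup.mem_bot]
  apply eq_of_smul_eq_smul (α := Ω)
  intro ω
  have h1 : ω ∈ MulAction.fixedPoints T Ω := by rw [h]; trivial
  have h2 := h1 ⟨t, ht⟩
  rw [one_smul]
  exact h2

theorem card_dvd_of_sta {n : ℕ} (hn : 4 ≤ n) (T : Subgroup G) [T.Normal]
    (hC : Subgroup.centralizer (T : Set G) = ⊥) [MulAction.IsPretransitive T Ω]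
    (e : T ≃* alternatingGroup (Fin n)) (ω0 : Ω) (h : Sta (HH e (MulAction.stabilizer G ω0))) :
    Nat.card Ω ∣ n := by
  obtain ⟨i, hi⟩ := h
  have h1 : MulAction.stabilizer (alternatingGroup (Fin n)) i ≤
      (MulAction.stabilizer T ω0).map e.toMonoidHom := by
    intro τ hτ
    obtain ⟨x, hx, h2⟩ := hi τ τ.2 hτ
    obtain ⟨s, rfl⟩ := e.surjective τ
    have h3 : x = s := h2.left_unique hC (Ind.self s)
    refine ⟨s, ?_, rfl⟩
    subst h3
    exact hx
  have h2 := Subgroup.index_dvd_of_le h1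
  have h3 : ((MulAction.stabilizer T ω0).map e.toMonoidHom).index = (MulAction.stabilizer T ω0).index :=
    Subgroup.index_map_equiv _ e
  have h4 : (MulAction.stabilizer (alternatingGroup (Fin n)) i).index = n := by
    have : Nontrivial (Fin n) := Fin.nontrivial_iff_two_le.2 (by omega)
    have h5 : MulAction.IsPretransitive (alternatingGroup (Fin n)) (Fin n) :=
      alternatingGroup.isPretransitive_of_three_le_card _ (by rw [Nat.card_eq_fintype_card, Fintype.card_fin]; omega)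
    rw [MulAction.index_stabilizer_of_transitive, Nat.card_eq_fintype_card, Fintype.card_fin]
  rw [h3, h4, MulAction.index_stabilizer_of_transitive] at h2
  exact h2

end card

/-- automorphisms of `T ≅ A_n`, `n ≠ 6` -/
theorem exists_ind {G : Type u} [Group G] {T : Subgroup G} [T.Normal] {n : ℕ} (hn : 4 ≤ n) (h6 : n ≠ 6)
    (e : T ≃* alternatingGroup (Fin n)) (g : G) : ∃ σ : Perm (Fin n), Ind e g σ := by
  obtain ⟨σ, hσ⟩ := (S2119.result n hn h6).2 ((e.symm.trans (MulAut.conjNormal g)).trans e)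
  refine ⟨σ, fun t => ?_⟩
  have h1 := congrArg Subtype.val (DFunLike.congr_fun hσ (e t))
  rw [MulAut.conjNormal_apply] at h1
  rw [h1]
  change _ = ((e (MulAut.conjNormal g (e.symm (e t))) : alternatingGroup (Fin n)) : Perm (Fin n))
  rw [MulEquiv.symm_apply_apply]

end Cfsg.Agent.H884.Ex
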