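import Mathlib

/-!
# S3510, EXC: permutations as lists, tree certificates (helper884)
-/

set_option autoImplicit false

namespace Cfsg.Agent.H884.Ex

open Equiv Equiv.Perm

/-- composition of codes: first `b`, then `a` -/
def mulC (a b : List ℕ) : List ℕ := b.map fun x => a.getD x 0

/-- the code of a transposition -/
def swC (n a b : ℕ) : List ℕ := (List.range n).map fun i => if i = a then b else if i = b then a else i

/-- `l` is the list of values of `σ` -/
def Rep {n : ℕ} (σ : Perm (Fin n)) (l : List ℕ) : Prop := ∀ i : Fin n, l[(i : ℕ)]? = some ((σ i : Fin n) : ℕ)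

theorem Rep.ext {n : ℕ} {σ τ : Perm (Fin n)} {c : List ℕ} (h1 : Rep σ c) (h2 : Rep τ c) : σ = τ := by
  ext i
  have := h1 i
  rw [h2 i] at this
  exact (Option.some.inj this).symm

theorem Rep.mul {n : ℕ} {σ τ : Perm (Fin n)} {a b : List ℕ} (h1 : Rep σ a) (h2 : Rep τ b) :
    Rep (σ * τ) (mulC a b) := by
  intro i
  rw [mulC, List.getElem?_map, h2 i, Option.map_some, List.getD_eq_getElem?_getD, h1 (τ i)]
  rfl

theorem Rep.one {n : ℕ} : Rep (1 : Perm (Fin n)) (List.range n) := by
  intro i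
  rw [List.getElem?_range i.isLt]
  rfl

theorem Rep.sw {n : ℕ} (a b : Fin n) : Rep (swap a b) (swC n a b) := by
  intro i
  rw [swC, List.getElem?_map, List.getElem?_range i.isLt, Option.map_some]
  congr 1
  rw [swap_apply_def]
  by_cases h1 : i = a
  · subst h1; simp
  · have h1' : (i : ℕ) ≠ a := fun h => h1 (Fin.ext h)
    rw [if_neg h1', if_neg h1]
    by_cases h2 : i = b
    · subst h2; simp
    · have h2' : (i : ℕ) ≠ b := fun h => h2 (Fin.ext h)
      rw [if_neg h2', if_neg h2]

/-- the product of a list of transpositions -/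
def prodT {n : ℕ} : List (Fin n × Fin n) → Perm (Fin n)
  | [] => 1
  | p :: ts => swap p.1 p.2 * prodT ts

/-- the code of `(prodT ts)⁻¹ x (prodT ts)` -/
def cj (n : ℕ) : List ℕ → List (Fin n × Fin n) → List ℕ
  | x, [] => x
  | x, p :: ts => cj n (mulC (swC n p.1 p.2) (mulC x (swC n p.1 p.2))) ts

theorem Rep.cj {n : ℕ} : ∀ (ts : List (Fin n × Fin n)) {x : Perm (Fin n)} {c : List ℕ}, Rep x c →
    Rep ((prodT ts)⁻¹ * x * prodT ts) (Ex.cj n c ts)
  | [], x, c, h => by
    simpa [prodT, Ex.cj] using h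
  | p :: ts, x, c, h => by
    have h1 := Rep.cj ts ((Rep.sw p.1 p.2).mul (h.mul (Rep.sw p.1 p.2)))
    have h2 : (prodT ts)⁻¹ * (swap p.1 p.2 * (x * swap p.1 p.2)) * prodT ts =
        (prodT (p :: ts))⁻¹ * x * prodT (p :: ts) := by
      rw [prodT, mul_inv_rev, swap_inv]
      simp only [mul_assoc]
    rw [h2] at h1
    exact h1

theorem prodT_sign {n : ℕ} : ∀ ts : List (Fin n × Fin n), (∀ p ∈ ts, p.1 ≠ p.2) →
    sign (prodT ts) = (-1) ^ ts.length
  | [], _ => by simp [prodT]
  | p :: ts, h => by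
    rw [prodT, map_mul, sign_swap (h p (by simp)), prodT_sign ts (fun q hq => h q (by simp [hq])),
      List.length_cons, pow_succ']

/-- evaluation of a word -/
def evW (n : ℕ) (L : List (List ℕ)) : List ℕ → List ℕ
  | [] => List.range n
  | k :: w => mulC (L.getD k (List.range n)) (evW n L w)

theorem evW_sound {n : ℕ} {H : Subgroup (Perm (Fin n))} {L : List (List ℕ)}
    (hL : ∀ c ∈ L, ∃ σ ∈ H, Rep σ c) : ∀ w : List ℕ, ∃ σ ∈ H, Rep σ (evW n L w)
  | [] => ⟨1, H.one_mem, Rep.one⟩
  | k :: w => by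
    obtain ⟨τ, hτ, h1⟩ := evW_sound hL w
    have h2 : ∃ σ ∈ H, Rep σ (L.getD k (List.range n)) := by
      by_cases hk : k < L.length
      · rw [List.getD_eq_getElem _ _ hk]
        exact hL _ (List.getElem_mem hk)
      · rw [List.getD_eq_default _ _ (by omega)]
        exact ⟨1, H.one_mem, Rep.one⟩
    obtain ⟨σ, hσ, h3⟩ := h2
    exact ⟨σ * τ, H.mul_mem hσ hτ, h3.mul h1⟩

/-- the `p`-th point different from `i` -/
def pos (i p : ℕ) : ℕ := if p < i then p else p + 1

/-- inverse of `pos i` -/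
def unpos (i x : ℕ) : ℕ := if x < i then x else x - 1

/-- first generator of the stabiliser of `i` -/
def c1C (n i : ℕ) : List ℕ := (List.range n).map fun x =>
  if x = i then i else if unpos i x < 3 then pos i ((unpos i x + 1) % 3) else x

/-- second generator of the stabiliser of `i` -/
def c2C (n i : ℕ) : List ℕ := (List.range n).map fun x =>
  if x = i then i else if n % 2 = 0 then pos i ((unpos i x + 1) % (n - 1)) else
    if unpos i x = 0 then x else pos i (unpos i x % (n - 2) + 1)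

/-- certificates -/
inductive Tr (n : ℕ) where
  | leaf (i : ℕ) (w1 w2 : List ℕ) : Tr n
  | node (ts : List (Fin n × Fin n)) (l r : Tr n) : Tr n

/-- the check -/
def chk (n : ℕ) (xp xq : List ℕ) : List (List ℕ) → Tr n → Bool
  | L, .leaf i w1 w2 => decide (i < n) && (evW n L w1 == c1C n i && evW n L w2 == c2C n i)
  | L, .node ts l r => (ts.length % 2 == 0) && (ts.all fun p => decide (p.1 ≠ p.2)) &&
      (chk n xp xq (L ++ [cj n xp ts]) l && chk n xp xq (L ++ [cj n xq ts]) r)

theorem chk_sound {n : ℕ} {H : Subgroup (Perm (Fin n))} {p q : Perm (Fin n)} {xp xq : List ℕ}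
    (hp : Rep p xp) (hq : Rep q xq)
    (hcov : ∀ t ∈ alternatingGroup (Fin n), t⁻¹ * p * t ∈ H ∨ t⁻¹ * q * t ∈ H) :
    ∀ (T : Tr n) (L : List (List ℕ)), (∀ c ∈ L, ∃ σ ∈ H, Rep σ c) → chk n xp xq L T = true →
      ∃ i < n, (∃ σ ∈ H, Rep σ (c1C n i)) ∧ (∃ σ ∈ H, Rep σ (c2C n i))
  | .leaf i w1 w2, L, hL, h => by
    rw [chk, Bool.and_eq_true, Bool.and_eq_true, decide_eq_true_eq, beq_iff_eq, beq_iff_eq] at h
    refine ⟨i, h.1, ?_, ?_⟩
    · rw [← h.2.1]; exact evW_sound hL w1
    · rw [← h.2.2]; exact evW_sound hL w2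
  | .node ts l r, L, hL, h => by
    rw [chk, Bool.and_eq_true, Bool.and_eq_true, Bool.and_eq_true, beq_iff_eq, List.all_eq_true] at h
    obtain ⟨⟨h1, h2⟩, h3, h4⟩ := h
    have hs : prodT ts ∈ alternatingGroup (Fin n) := by
      rw [mem_alternatingGroup, prodT_sign ts (fun p hp => by simpa using h2 p hp)]
      exact (Nat.even_iff.2 h1).neg_one_pow
    rcases hcov _ hs with h5 | h5
    · refine chk_sound hp hq hcov l _ ?_ h3
      intro c hc
      rcases List.mem_append.1 hc with hc | hc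
      · exact hL c hc
      · rw [List.mem_singleton.1 hc]
        exact ⟨_, h5, Rep.cj ts hp⟩
    · refine chk_sound hp hq hcov r _ ?_ h4
      intro c hc
      rcases List.mem_append.1 hc with hc | hc
      · exact hL c hc
      · rw [List.mem_singleton.1 hc]
        exact ⟨_, h5, Rep.cj ts hq⟩

/-- a table of words for all three-cycles fixing `i` -/
def chkG (n : ℕ) (W : List (List (List (List ℕ)))) : Bool :=
  (List.range n).all fun i => (List.range n).all fun a => (List.range n).all fun b =>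
    (List.range n).all fun c => a == i || b == i || c == i || a == b || b == c || a == c ||
      (evW n [c1C n i, c2C n i] (((W.getD (unpos i a) []).getD (unpos i b) []).getD (unpos i c) []) ==
        mulC (swC n a b) (swC n b c))

/-- three-cycles fixing `i` generate the stabiliser of `i` in the alternating group -/
theorem gen3 {n : ℕ} (H : Subgroup (Perm (Fin n))) (i : Fin n)
    (h : ∀ a b c : Fin n, a ≠ i → b ≠ i → c ≠ i → a ≠ b → b ≠ c → a ≠ c → swap a b * swap b c ∈ H) :
    ∀ τ ∈ alternatingGroup (Fin n), τ i = i → τ ∈ H := by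
  classical
  intro τ hτ hi
  have h1 : alternatingGroup {x : Fin n // x ≠ i} ≤
      H.comap (ofSubtype : Perm {x : Fin n // x ≠ i} →* Perm (Fin n)) := by
    rw [← closure_three_cycles_eq_alternating, Subgroup.closure_le]
    intro σ hσ
    have hσ' : σ.IsThreeCycle := hσ
    obtain ⟨a, ha⟩ : ∃ a, a ∈ σ.support := by
      have : σ.support.card = 3 := hσ'.card_support
      exact Finset.card_pos.1 (by omega)
    have hs := hσ'.eq_swap_mul_swap_iff_mem_support.2 ha
    have ha1 : σ a ≠ a := mem_support.1 ha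
    have hb1 : σ (σ a) ≠ σ a := fun h => ha1 (σ.injective h)
    have hc3 : σ (σ (σ a)) = a := by
      have h3 := hσ'.orderOf
      have h4 := pow_orderOf_eq_one σ
      rw [h3] at h4
      exact DFunLike.congr_fun h4 a
    have hc1 : a ≠ σ (σ a) := by
      intro h
      have := congrArg σ h
      rw [hc3] at this
      exact ha1 this
    change (ofSubtype σ : Perm (Fin n)) ∈ H
    rw [hs, map_mul, ofSubtype_swap_eq, ofSubtype_swap_eq]
    exact h _ _ _ a.2 (σ a).2 (σ (σ a)).2 (fun h => ha1 (Subtype.ext h).symm)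
      (fun h => hb1 (Subtype.ext h).symm) (fun h => hc1 (Subtype.ext h))
  have h2 : ∀ x, (τ x ≠ i) ↔ (x ≠ i) := by
    intro x
    constructor
    · rintro hx rfl; exact hx hi
    · intro hx hx'
      exact hx (τ.injective (hx'.trans hi.symm))
  have h3 : ofSubtype (τ.subtypePerm h2) = τ := ofSubtype_subtypePerm (p := fun x => x ≠ i) h2 (by
    rintro x hx rfl; exact hx hi)
  have h4 : τ.subtypePerm h2 ∈ alternatingGroup {x : Fin n // x ≠ i} := by
    rw [mem_alternatingGroup, ← sign_ofSubtype, h3]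
    exact mem_alternatingGroup.1 hτ
  have h5 := h1 h4
  rw [Subgroup.mem_comap, h3] at h5
  exact h5

/-- **the certificate theorem** -/
theorem core {n : ℕ} (W : List (List (List (List ℕ)))) (hW : chkG n W = true)
    {H : Subgroup (Perm (Fin n))} {p q : Perm (Fin n)} {xp xq : List ℕ}
    (hp : Rep p xp) (hq : Rep q xq)
    (hcov : ∀ t ∈ alternatingGroup (Fin n), t⁻¹ * p * t ∈ H ∨ t⁻¹ * q * t ∈ H)
    (T : Tr n) (hT : chk n xp xq [] T = true) :
    ∃ i : Fin n, ∀ τ ∈ alternatingGroup (Fin n), τ i = i → τ ∈ H := by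
  obtain ⟨i, hi, h1, h2⟩ := chk_sound hp hq hcov T [] (by simp) hT
  refine ⟨⟨i, hi⟩, gen3 H _ ?_⟩
  intro a b c ha hb hc hab hbc hac
  rw [chkG] at hW
  simp only [List.all_eq_true, List.mem_range] at hW
  have h3 := hW i hi a a.isLt b b.isLt c c.isLt
  have ha' : (a : ℕ) ≠ i := fun h => ha (Fin.ext h)
  have hb' : (b : ℕ) ≠ i := fun h => hb (Fin.ext h)
  have hc' : (c : ℕ) ≠ i := fun h => hc (Fin.ext h)
  have hab' : (a : ℕ) ≠ b := fun h => hab (Fin.ext h)
  have hbc' : (b : ℕ) ≠ c := fun h => hbc (Fin.ext h)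
  have hac' : (a : ℕ) ≠ c := fun h => hac (Fin.ext h)
  simp only [beq_eq_false_iff_ne.2 ha', beq_eq_false_iff_ne.2 hb', beq_eq_false_iff_ne.2 hc',
    beq_eq_false_iff_ne.2 hab', beq_eq_false_iff_ne.2 hbc', beq_eq_false_iff_ne.2 hac', Bool.false_or,
    beq_iff_eq] at h3
  have hL : ∀ c ∈ [c1C n i, c2C n i], ∃ σ ∈ H, Rep σ c := by
    intro c hc
    rcases List.mem_cons.1 hc with rfl | hc
    · exact h1
    · rw [List.mem_singleton.1 hc]; exact h2
  obtain ⟨σ, hσ, h4⟩ := evW_sound hL
    (((W.getD (unpos i a) []).getD (unpos i b) []).getD (unpos i c) [])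
  rw [h3] at h4
  rwa [((Rep.sw a b).mul (Rep.sw b c)).ext h4]

end Cfsg.Agent.H884.Ex
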