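import Cfsg.Agent.H884.Ex.Cert

/-!
# S3510, EXC: cycle types (helper884)
-/

set_option autoImplicit false
set_option maxRecDepth 100000

namespace Cfsg.Agent.H884.Ex

open Equiv Equiv.Perm

/-- descending lists with entries in `2 .. k` and sum `s` -/
def allP : ℕ → ℕ → ℕ → List (List ℕ)
  | 0, _, s => if s = 0 then [[]] else []
  | f + 1, k, s => if s = 0 then [[]] else
      (List.range (s + 1)).flatMap fun j => if 2 ≤ j ∧ j ≤ k then (allP f j (s - j)).map (List.cons j) else []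

theorem mem_allP : ∀ (l : List ℕ) (f k s : ℕ), l.Pairwise (fun a b => b ≤ a) → (∀ x ∈ l, 2 ≤ x ∧ x ≤ k) →
    l.sum = s → l.length ≤ f → l ∈ allP f k s
  | [], f, k, s, _, _, h3, _ => by
    have : s = 0 := by simpa using h3.symm
    subst this
    cases f <;> simp [allP]
  | a :: l, 0, k, s, _, _, _, h4 => by simp at h4
  | a :: l, f + 1, k, s, h1, h2, h3, h4 => by
    have ha := h2 a (by simp)
    rw [List.sum_cons] at h3
    have hs : s ≠ 0 := by omega
    rw [allP, if_neg hs, List.mem_flatMap]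
    refine ⟨a, List.mem_range.2 (by omega), ?_⟩
    rw [if_pos ha, List.mem_map]
    refine ⟨l, ?_, rfl⟩
    rw [List.pairwise_cons] at h1
    apply mem_allP l f a (s - a) h1.2
    · intro x hx
      exact ⟨(h2 x (by simp [hx])).1, h1.1 x hx⟩
    · omega
    · simpa using h4

theorem enum {n : ℕ} (σ : Perm (Fin n)) : ∃ l : List ℕ, σ.cycleType = ↑l ∧
    ∃ s ∈ List.range (n + 1), l ∈ allP n n s := by
  refine ⟨σ.cycleType.sort (fun a b => b ≤ a), (Multiset.sort_eq _ _).symm, ?_⟩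
  set l := σ.cycleType.sort (fun a b => b ≤ a) with hl
  have hc : (l : Multiset ℕ) = σ.cycleType := Multiset.sort_eq _ _
  have hsum : l.sum ≤ n := by
    have h1 : (l : Multiset ℕ).sum = σ.support.card := by rw [hc, sum_cycleType]
    rw [Multiset.sum_coe] at h1
    rw [h1]
    simpa using Finset.card_le_univ σ.support
  have h2 : ∀ x ∈ l, 2 ≤ x := by
    intro x hx
    have : x ∈ σ.cycleType := by rw [← hc]; exact hx
    exact two_le_of_mem_cycleType this
  refine ⟨l.sum, List.mem_range.2 (by omega), mem_allP l n n _ ?_ ?_ rfl ?_⟩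
  · exact Multiset.pairwise_sort _ _
  · intro x hx
    exact ⟨h2 x hx, (List.single_le_sum (by simp) x hx).trans hsum⟩
  · have h3 : l.length * 2 ≤ l.sum := by
      clear_value l
      clear hl hc hsum
      induction l with
      | nil => simp
      | cons a l ih =>
        rw [List.length_cons, List.sum_cons]
        have := h2 a (by simp)
        have := ih (fun x hx => h2 x (by simp [hx]))
        omega
    omega

/-- numbers which are 1 or prime powers -/
def PP (m : ℕ) : Prop := ∃ p k : ℕ, p.Prime ∧ m = p ^ k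

theorem pp_of_mem {m : ℕ} (h : m ∈ [1, 2, 3, 4, 5, 7, 8]) : PP m := by
  simp only [List.mem_cons, List.not_mem_nil, or_false] at h
  rcases h with rfl | rfl | rfl | rfl | rfl | rfl | rfl
  · exact ⟨2, 0, Nat.prime_two, rfl⟩
  · exact ⟨2, 1, Nat.prime_two, rfl⟩
  · exact ⟨3, 1, Nat.prime_three, rfl⟩
  · exact ⟨2, 2, Nat.prime_two, rfl⟩
  · exact ⟨5, 1, Nat.prime_five, rfl⟩
  · exact ⟨7, 1, by norm_num, rfl⟩
  · exact ⟨2, 3, Nat.prime_two, rfl⟩

theorem lcm_coe (l : List ℕ) : (l : Multiset ℕ).lcm = l.foldr Nat.lcm 1 := by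
  induction l with
  | nil => rfl
  | cons a l ih =>
    rw [← Multiset.cons_coe, Multiset.lcm_cons, ih]
    rfl

theorem orderOf_eq {n : ℕ} {σ : Perm (Fin n)} {l : List ℕ} (h : σ.cycleType = ↑l) :
    orderOf σ = l.foldr Nat.lcm 1 := by
  rw [← lcm_cycleType, h, lcm_coe]

theorem cases_of {n : ℕ} (E : List (List ℕ))
    (hchk : ((List.range (n + 1)).all fun s => (allP n n s).all fun l =>
      decide (l.foldr Nat.lcm 1 ∈ [1, 2, 3, 4, 5, 7, 8]) || E.contains l) = true)
    (σ : Perm (Fin n)) : PP (orderOf σ) ∨ ∃ l ∈ E, σ.cycleType = ↑l := by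
  obtain ⟨l, hl, s, hs, hm⟩ := enum σ
  rw [List.all_eq_true] at hchk
  have h1 := hchk s hs
  rw [List.all_eq_true] at h1
  have h2 := h1 l hm
  rw [Bool.or_eq_true, decide_eq_true_eq, List.contains_iff_mem] at h2
  rcases h2 with h2 | h2
  · left
    rw [orderOf_eq hl]
    exact pp_of_mem h2
  · right; exact ⟨l, h2, hl⟩

theorem chkE5 : ((List.range (5 + 1)).all fun s => (allP 5 5 s).all fun l =>
      decide (l.foldr Nat.lcm 1 ∈ [1, 2, 3, 4, 5, 7, 8]) || ([[3, 2]] : List (List ℕ)).contains l) = true := by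
  decide +kernel

theorem chkE6 : ((List.range (6 + 1)).all fun s => (allP 6 6 s).all fun l =>
      decide (l.foldr Nat.lcm 1 ∈ [1, 2, 3, 4, 5, 7, 8]) || ([[3, 2], [6]] : List (List ℕ)).contains l) = true := by
  decide +kernel

theorem chkE8 : ((List.range (8 + 1)).all fun s => (allP 8 8 s).all fun l =>
      decide (l.foldr Nat.lcm 1 ∈ [1, 2, 3, 4, 5, 7, 8]) || ([[3, 2], [3, 2, 2], [3, 3, 2], [6], [6, 2], [5, 2],
        [5, 3], [4, 3]] : List (List ℕ)).contains l) = true := by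
  decide +kernel

theorem ct5_32 : g_t5_32.cycleType = ↑([3, 2] : List ℕ) := by decide +kernel
theorem ct6_32 : g_t6_32.cycleType = ↑([3, 2] : List ℕ) := by decide +kernel
theorem ct8_32 : g_t8_32.cycleType = ↑([3, 2] : List ℕ) := by decide +kernel
theorem ct8_322 : g_t8_322.cycleType = ↑([3, 2, 2] : List ℕ) := by decide +kernel
theorem ct8_332 : g_t8_332.cycleType = ↑([3, 3, 2] : List ℕ) := by decide +kernel
theorem ct8_6 : g_t8_6.cycleType = ↑([6] : List ℕ) := by decide +kernel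
theorem ct8_62 : g_t8_62.cycleType = ↑([6, 2] : List ℕ) := by decide +kernel
theorem ct8_52 : g_t8_52.cycleType = ↑([5, 2] : List ℕ) := by decide +kernel
theorem ct8_53 : g_t8_53.cycleType = ↑([5, 3] : List ℕ) := by decide +kernel
theorem ct8_43 : g_t8_43.cycleType = ↑([4, 3] : List ℕ) := by decide +kernel

/-- the covering property of `σ`: conjugates of elements of prime order of `⟨σ⟩` -/
def Cov {n : ℕ} (H : Subgroup (Perm (Fin n))) (σ : Perm (Fin n)) : Prop :=
  ∀ t ∈ alternatingGroup (Fin n), ∃ r : ℕ, r.Prime ∧ r ∣ orderOf σ ∧ t⁻¹ * σ ^ (orderOf σ / r) * t ∈ H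

/-- the conclusion: `H` contains a point stabiliser of the alternating group -/
def Sta {n : ℕ} (H : Subgroup (Perm (Fin n))) : Prop :=
  ∃ i : Fin n, ∀ τ ∈ alternatingGroup (Fin n), τ i = i → τ ∈ H

theorem sta_conj {n : ℕ} {H : Subgroup (Perm (Fin n))} (c : Perm (Fin n))
    (h : Sta (H.comap (MulAut.conj c).toMonoidHom)) : Sta H := by
  obtain ⟨i, hi⟩ := h
  refine ⟨c i, fun τ hτ h1 => ?_⟩
  have h2 := hi (c⁻¹ * τ * c) (by
    rw [mem_alternatingGroup] at hτ ⊢
    rw [map_mul, map_mul, hτ, map_inv, mul_one, inv_mul_cancel]) (by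
    rw [mul_apply, mul_apply, h1]
    exact c.symm_apply_apply i)
  rw [Subgroup.mem_comap] at h2
  have h3 : (MulAut.conj c).toMonoidHom (c⁻¹ * τ * c) = τ := by
    change c * (c⁻¹ * τ * c) * c⁻¹ = τ
    group
  rwa [h3] at h2

theorem cov_conj {n : ℕ} {H : Subgroup (Perm (Fin n))} {σ g : Perm (Fin n)} (c : Perm (Fin n))
    (hc : c * g * c⁻¹ = σ) (h : Cov H σ) : Cov (H.comap (MulAut.conj c).toMonoidHom) g := by
  have ho : orderOf g = orderOf σ := by
    rw [← hc]
    exact (orderOf_injective (MulAut.conj c).toMonoidHom (MulAut.conj c).injective g).symm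
  intro t ht
  obtain ⟨r, h1, h2, h3⟩ := h (c * t * c⁻¹) (by
    rw [mem_alternatingGroup] at ht ⊢
    rw [map_mul, map_mul, ht, map_inv, mul_one, mul_inv_cancel])
  refine ⟨r, h1, by rwa [ho], ?_⟩
  rw [Subgroup.mem_comap, ho]
  have h4 : (MulAut.conj c).toMonoidHom (t⁻¹ * g ^ (orderOf σ / r) * t) =
      (c * t * c⁻¹)⁻¹ * σ ^ (orderOf σ / r) * (c * t * c⁻¹) := by
    change c * (t⁻¹ * g ^ (orderOf σ / r) * t) * c⁻¹ = _
    rw [← hc, conj_pow]
    group
  rwa [h4]

/-- reduction to a representative -/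
theorem sta_of_rep {n : ℕ} {H : Subgroup (Perm (Fin n))} {σ : Perm (Fin n)} (g : Perm (Fin n)) {l : List ℕ}
    (hg : g.cycleType = ↑l) (hσ : σ.cycleType = ↑l)
    (hcore : ∀ H : Subgroup (Perm (Fin n)), Cov H g → Sta H) (h : Cov H σ) : Sta H := by
  have h1 : IsConj g σ := by rw [isConj_iff_cycleType_eq, hg, hσ]
  obtain ⟨c, hc⟩ := isConj_iff.1 h1
  exact sta_conj c (hcore _ (cov_conj c hc h))

/-- two primes -/
theorem two_of_cov {n : ℕ} {H : Subgroup (Perm (Fin n))} {g : Perm (Fin n)} {l : List ℕ}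
    (hg : g.cycleType = ↑l) (m p q : ℕ) (hm : l.foldr Nat.lcm 1 = m)
    (hpq : ∀ r, r.Prime → r ∣ m → r = p ∨ r = q) (h : Cov H g) :
    ∀ t ∈ alternatingGroup (Fin n), t⁻¹ * g ^ (m / p) * t ∈ H ∨ t⁻¹ * g ^ (m / q) * t ∈ H := by
  intro t ht
  have ho : orderOf g = m := by rw [orderOf_eq hg, hm]
  obtain ⟨r, h1, h2, h3⟩ := h t ht
  rw [ho] at h2 h3
  rcases hpq r h1 h2 with rfl | rfl
  · left; exact h3
  · right; exact h3

theorem pr6 : ∀ r : ℕ, r.Prime → r ∣ 6 → r = 2 ∨ r = 3 := by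
  intro r hr h
  have h1 : r ≤ 6 := Nat.le_of_dvd (by norm_num) h
  interval_cases r <;> first | omega | (exfalso; revert hr; norm_num)

theorem pr10 : ∀ r : ℕ, r.Prime → r ∣ 10 → r = 2 ∨ r = 5 := by
  intro r hr h
  have h1 : r ≤ 10 := Nat.le_of_dvd (by norm_num) h
  interval_cases r <;> first | omega | (exfalso; revert hr; norm_num)

theorem pr15 : ∀ r : ℕ, r.Prime → r ∣ 15 → r = 3 ∨ r = 5 := by
  intro r hr h
  have h1 : r ≤ 15 := Nat.le_of_dvd (by norm_num) h
  interval_cases r <;> first | omega | (exfalso; revert hr; norm_num)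

theorem pr12 : ∀ r : ℕ, r.Prime → r ∣ 12 → r = 2 ∨ r = 3 := by
  intro r hr h
  have h1 : r ≤ 12 := Nat.le_of_dvd (by norm_num) h
  interval_cases r <;> first | omega | (exfalso; revert hr; norm_num)

/-- **degree 5** -/
theorem sta5 {H : Subgroup (Perm (Fin 5))} {σ : Perm (Fin 5)} (h : Cov H σ) : PP (orderOf σ) ∨ Sta H := by
  rcases cases_of _ chkE5 σ with h1 | ⟨l, h1, h2⟩
  · exact Or.inl h1
  · right
    simp only [List.mem_cons, List.not_mem_nil, or_false] at h1
    subst h1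
    exact sta_of_rep g_t5_32 ct5_32 h2 (fun H hH => core_t5_32 (two_of_cov ct5_32 6 2 3 (by decide) pr6 hH)) h

/-- **degree 8** -/
theorem sta8 {H : Subgroup (Perm (Fin 8))} {σ : Perm (Fin 8)} (h : Cov H σ) : PP (orderOf σ) ∨ Sta H := by
  rcases cases_of _ chkE8 σ with h1 | ⟨l, h1, h2⟩
  · exact Or.inl h1
  · right
    simp only [List.mem_cons, List.not_mem_nil, or_false] at h1
    rcases h1 with rfl | rfl | rfl | rfl | rfl | rfl | rfl | rfl
    · exact sta_of_rep g_t8_32 ct8_32 h2 (fun H hH => core_t8_32 (two_of_cov ct8_32 6 2 3 (by decide) pr6 hH)) h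
    · exact sta_of_rep g_t8_322 ct8_322 h2 (fun H hH => core_t8_322 (two_of_cov ct8_322 6 2 3 (by decide) pr6 hH)) h
    · exact sta_of_rep g_t8_332 ct8_332 h2 (fun H hH => core_t8_332 (two_of_cov ct8_332 6 2 3 (by decide) pr6 hH)) h
    · exact sta_of_rep g_t8_6 ct8_6 h2 (fun H hH => core_t8_6 (two_of_cov ct8_6 6 2 3 (by decide) pr6 hH)) h
    · exact sta_of_rep g_t8_62 ct8_62 h2 (fun H hH => core_t8_62 (two_of_cov ct8_62 6 2 3 (by decide) pr6 hH)) h
    · exact sta_of_rep g_t8_52 ct8_52 h2 (fun H hH => core_t8_52 (two_of_cov ct8_52 10 2 5 (by decide) pr10 hH)) h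
    · exact sta_of_rep g_t8_53 ct8_53 h2 (fun H hH => core_t8_53 (two_of_cov ct8_53 15 3 5 (by decide) pr15 hH)) h
    · exact sta_of_rep g_t8_43 ct8_43 h2 (fun H hH => core_t8_43 (two_of_cov ct8_43 12 2 3 (by decide) pr12 hH)) h

/-- **degree 6, type 3+2** -/
theorem sta6 {H : Subgroup (Perm (Fin 6))} {σ : Perm (Fin 6)} (h : Cov H σ)
    (hσ : σ.cycleType = ↑([3, 2] : List ℕ)) : Sta H :=
  sta_of_rep g_t6_32 ct6_32 hσ (fun H hH => core_t6_32 (two_of_cov ct6_32 6 2 3 (by decide) pr6 hH)) h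

end Cfsg.Agent.H884.Ex
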